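import Groth.Agent.LoccohB.GoodSch
import Groth.Agent.PerfA.CohExtGlue
import Groth.Agent.LoccohB.AdAffine
import Groth.Agent.LoccohB.HomBC2

/-!
# Being a dualizing complex on a locally Noetherian scheme is local

* `isDualizingSch_of_local`: if every point has an affine open neighbourhood `j : Spec A → X` over which `K` is
  the image of a dualizing complex of `A`, then `K` is a dualizing complex on `X`.
* `isCohD_of_local`: such a `K` has coherent cohomology.
-/

set_option autoImplicit false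

universe u

open CategoryTheory CategoryTheory.Limits AlgebraicGeometry

attribute [local instance] HasDerivedCategory.standard

namespace Groth.Agent.Dual.H365.DualSchLocal

open Groth.Agent.LoccohB Groth.Agent.LoccohB.BassCrit
open Groth.Agent.PerfA.Restrict (restrictD)
open Groth.Agent.PerfA.PerfLocal (restrictDComp restrictDCongr)

section Aux

variable {X : Scheme.{u}} (K : DCoh.D X)

/-- The restriction of a bounded below complex to an open subscheme is bounded below. -/
theorem isGE_restrictD {U : Scheme.{u}} (j : U ⟶ X) [IsOpenImmersion j] (a : ℤ) (h : K.IsGE a) :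
    ((restrictD j).obj K).IsGE a :=
  PerfA.ExactD.isGE_map (Scheme.Modules.restrictFunctor j) K a

/-- If `K|_U` is in `D^{≥ a}` then so is the restriction of `K|_V` to `U ∩ V`. -/
theorem isGE_overlap {U V : Scheme.{u}} (j : U ⟶ X) (k : V ⟶ X) [IsOpenImmersion j]
    [IsOpenImmersion k] (a : ℤ) (h : ((restrictD j).obj K).IsGE a) :
    ((restrictD (pullback.snd j k)).obj ((restrictD k).obj K)).IsGE a := by
  have e : (restrictD (pullback.fst j k)).obj ((restrictD j).obj K) ≅
      (restrictD (pullback.snd j k)).obj ((restrictD k).obj K) :=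
    (restrictDComp (pullback.fst j k) j).app K ≪≫
      (restrictDCongr pullback.condition).app K ≪≫
      ((restrictDComp (pullback.snd j k) k).app K).symm
  have h1 := isGE_restrictD _ (pullback.fst j k) a h
  exact DerivedCategory.TStructure.t.isGE_of_iso e a

/-- If `ω` is in `D^{≥ a}` then so is its image under the derived tilde functor. -/
theorem isGE_tildeD (R : CommRingCat.{u}) [PreservesFiniteLimits (tilde.functor R)]
    (ω : DerivedCategory (ModuleCat.{u} R)) (a : ℤ) (h : ω.IsGE a) :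
    ((DCoh.tildeD R).obj ω).IsGE a :=
  PerfA.ExactD.isGE_map (tilde.functor R) ω a

/-- If the image of `ω` under the derived tilde functor is in `D^{≥ a}` then so is `ω`. -/
theorem isGE_of_tildeD (R : CommRingCat.{u}) [PreservesFiniteLimits (tilde.functor R)]
    (ω : DerivedCategory (ModuleCat.{u} R)) (a : ℤ)
    (h : ((DCoh.tildeD R).obj ω).IsGE a) : ω.IsGE a := by
  rw [DerivedCategory.isGE_iff]
  intro i hi
  apply GoodSch.isZero_of_isZero_tilde R
  exact (((DCoh.tildeD R).obj ω).isZero_of_isGE a i hi).of_iso (CMSch.tildeHD R ω i).symm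

end Aux

section Main

variable {X : Scheme.{u}}

/-- A complex which is locally dualizing has coherent cohomology. -/
theorem isCohD_of_local
    [∀ (R : CommRingCat.{u}), PreservesFiniteLimits (tilde.functor R)] (K : DCoh.D X)
    (h : ∀ x : X, ∃ (A : Type u) (_ : CommRing A) (j : Spec (CommRingCat.of A) ⟶ X)
      (_ : IsOpenImmersion j) (ω : Dual.D A), x ∈ Set.range j ∧ Dual.IsDualizing A ω ∧
        Nonempty ((restrictD j).obj K ≅ (DCoh.tildeD (CommRingCat.of A)).obj ω)) :
    DCoh.IsCohD K := by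
  refine PerfA.CohExtGlue.isCohD_of_restrictD K fun y => ?_
  obtain ⟨R, _, j, hj, ω, ⟨x, hx⟩, hω, ⟨e⟩⟩ := h y
  have := hω.isNoetherianRing
  have h1 : DCoh.IsCohD ((DCoh.tildeD (CommRingCat.of R)).obj ω) :=
    (AdAffine.isCohD_tilde_iff (P := CommRingCat.of R) ω).2 hω.finite_cohomology
  exact ⟨Spec (CommRingCat.of R), j, hj, x, hx, PerfA.QCohD.isCohD_of_iso e.symm h1⟩

/-- **Being a dualizing complex is local.** -/
theorem isDualizingSch_of_local [IsLocallyNoetherian X]
    [∀ (U : Scheme.{u}) (j : U ⟶ X) [IsOpenImmersion j],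
      PreservesFiniteLimits (Scheme.Modules.restrictFunctor j)]
    [∀ (R : CommRingCat.{u}), PreservesFiniteLimits (tilde.functor R)] (K : DCoh.D X)
    (h : ∀ x : X, ∃ (A : Type u) (_ : CommRing A) (j : Spec (CommRingCat.of A) ⟶ X)
      (_ : IsOpenImmersion j) (ω : Dual.D A), x ∈ Set.range j ∧ Dual.IsDualizing A ω ∧
        Nonempty ((restrictD j).obj K ≅ (DCoh.tildeD (CommRingCat.of A)).obj ω)) :
    Dual2.IsDualizingSch X K := by
  have hcoh := isCohD_of_local K h
  intro B _ k _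
  have hB : IsNoetherianRing B := GoodSch.isNoetherianRing_of_isOpenImmersion B k
  obtain ⟨ω, ⟨e⟩⟩ := GoodSch.exists_model K (CommRingCat.of B) k (fun i => (hcoh i).1)
  refine ⟨ω, ?_, ⟨e⟩⟩
  -- finitely many charts cover `Spec B`
  choose A iA j hj ωA hx hωA eA using h
  choose a b hGE hLE hab using fun x => HomBC.exists_bounds_of_isDualizing (hωA x)
  have hcomp : IsCompact (Set.univ : Set (Spec (CommRingCat.of B))) := isCompact_univ
  obtain ⟨t, ht⟩ := hcomp.elim_finite_subcover
    (fun p : Spec (CommRingCat.of B) => k ⁻¹' (Set.range (j (k p))))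
    (fun p => (j (k p)).isOpenEmbedding.isOpen_range.preimage k.continuous)
    (fun p _ => Set.mem_iUnion.2 ⟨p, hx (k p)⟩)
  have ht' : ∀ p : Spec (CommRingCat.of B), ∃ q ∈ t, k p ∈ Set.range (j (k q)) := by
    intro p
    have hp := ht (Set.mem_univ p)
    simp only [Set.mem_iUnion] at hp
    obtain ⟨q, hq, hp⟩ := hp
    exact ⟨q, hq, hp⟩
  obtain ⟨a₀, ha₀⟩ : ∃ a₀ : ℤ, ∀ q ∈ t, a₀ ≤ a (k q) := by
    obtain ⟨m, hm⟩ := (t.finite_toSet.image (fun q => a (k q))).bddBelow
    exact ⟨m, fun q hq => hm ⟨q, hq, rfl⟩⟩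
  obtain ⟨b₀, hb₀⟩ : ∃ b₀ : ℤ, ∀ q ∈ t, b (k q) ≤ b₀ := by
    obtain ⟨m, hm⟩ := (t.finite_toSet.image (fun q => b (k q))).bddAbove
    exact ⟨m, fun q hq => hm ⟨q, hq, rfl⟩⟩
  have hmodGE : ∀ q ∈ t, ((restrictD (j (k q))).obj K).IsGE a₀ := by
    intro q hq
    have h1 := hGE (k q)
    have h2 : (ωA (k q)).IsGE a₀ :=
      DerivedCategory.TStructure.t.isGE_of_ge _ _ (a (k q)) (ha₀ q hq)
    have h3 : ((DCoh.tildeD (CommRingCat.of (A (k q)))).obj (ωA (k q))).IsGE a₀ :=
      isGE_tildeD (CommRingCat.of (A (k q))) (ωA (k q)) a₀ h2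
    obtain ⟨e'⟩ := eA (k q)
    exact DerivedCategory.TStructure.t.isGE_of_iso e'.symm a₀
  have hKB : ((restrictD k).obj K).IsGE a₀ := by
    refine PerfA.CohExtGlue.isGE_of_restrictD _ a₀ fun p => ?_
    obtain ⟨q, hq, ⟨z, hz⟩⟩ := ht' p
    obtain ⟨y, hy1, hy2⟩ := Scheme.Pullback.exists_preimage_pullback (f := j (k q)) (g := k) z p hz
    exact ⟨_, pullback.snd (j (k q)) k, inferInstance, y, hy2,
      isGE_overlap K (j (k q)) k a₀ (hmodGE q hq)⟩
  have hωGE : ω.IsGE a₀ :=
    isGE_of_tildeD (CommRingCat.of B) ω a₀ (DerivedCategory.TStructure.t.isGE_of_iso e a₀)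
  refine (isDualizing_of_goodPt ω a₀ b₀
    (GoodSch.model_finite K (CommRingCat.of B) k ω e hcoh) ?_).1
  intro m hm
  let p : PrimeSpectrum B := ⟨m, hm.isPrime⟩
  obtain ⟨q, hq, p₀, hp₀⟩ : ∃ q ∈ t, ∃ p₀ : PrimeSpectrum (A (k q)), j (k q) p₀ = k p := by
    obtain ⟨q, hq, ⟨p₀, hp₀⟩⟩ := ht' p
    exact ⟨q, hq, p₀, hp₀⟩
  have hN : IsNoetherianRing (A (k q)) := (hωA (k q)).isNoetherianRing
  have hgood : GoodPt (b (k q)) (ωA (k q)) p₀.asIdeal :=
    goodPt_of_isDualizing (ωA (k q)) (b (k q))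
      ⟨hωA (k q), fun M _ _ i hi => hab (k q) M i (Or.inr hi)⟩ p₀.asIdeal
  obtain ⟨e'⟩ := eA (k q)
  exact GoodSch.goodPt_of_goodPt K (j (k q)) k p₀ p hp₀ (ωA (k q)) ω e' e (hgood.mono (hb₀ q hq))

end Main

end Groth.Agent.Dual.H365.DualSchLocal
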